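import Cfsg.Agent.H983.Pw.GTwoThreeJ
import Cfsg.Agent.H56.Exc.BigRows
import Cfsg.Agent.S1059
import Cfsg.Agent.S4278
import Cfsg.Agent.S4279
import Cfsg.Agent.ChevalleyStructure.FieldIso

/-!
# `G₂(3)`: every element is a product of two elements of order prime to 6 (helper983)

* `six_g2_three : Fintype.card F = 3 → All 6 (chevG2.group F)`.
-/

set_option autoImplicit false
set_option maxRecDepth 100000

namespace Cfsg.Agent.H983.Pw

open Subgroup Cfsg.Agent.H78.Pw Cfsg.Agent.SporadicA.PermTab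

/-! ### general tools -/

section gen

variable {G : Type*} [Group G]

/-- the centralisers of the elements of order `r` have order `r` -/
theorem orderOf_eq_of_dvd {r : ℕ} (hc : ∀ x : G, orderOf x = r → Nat.card ↥(centralizer {x}) ∣ r)
    [Finite G] {g : G} (hg : r ∣ orderOf g) : orderOf g = r := by
  obtain ⟨m, hm⟩ := hg
  have hpos : 0 < orderOf g := orderOf_pos g
  have hm0 : m ≠ 0 := by rintro rfl; rw [mul_zero] at hm; omega
  have h1 : orderOf (g ^ m) = r := by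
    rw [orderOf_pow' g hm0, hm, Nat.gcd_mul_left_left, Nat.mul_div_cancel _ (Nat.pos_of_ne_zero hm0)]
  have h2 : g ∈ centralizer {g ^ m} :=
    mem_centralizer_singleton_iff.2 ((Commute.refl g).pow_right m).eq
  have h3 : orderOf g ∣ r := by
    have h4 := orderOf_dvd_natCard (⟨g, h2⟩ : ↥(centralizer {g ^ m}))
    rw [orderOf_mk] at h4
    exact h4.trans (hc _ h1)
  exact Nat.dvd_antisymm h3 ⟨m, hm⟩

/-- elements of `r`-power order are conjugate into a Sylow subgroup -/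
theorem exists_conj_mem [Finite G] {r n m : ℕ} (hr : r.Prime) (hG : Nat.card G = r ^ n * m) (hm : ¬ r ∣ m)
    {H : Subgroup G} (hH : Nat.card ↥H = r ^ n) {g : G} (hg : ∃ k, g ^ r ^ k = 1) : ∃ x : G, x * g * x⁻¹ ∈ H := by
  have := Fact.mk hr
  have hf : (Nat.card G).factorization r = n := by
    rw [hG, Nat.factorization_mul (pow_ne_zero _ hr.ne_zero) (by rintro rfl; exact hm (dvd_zero _)),
      Finsupp.add_apply, hr.factorization_pow, Finsupp.single_eq_same, Nat.factorization_eq_zero_of_not_dvd hm,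
      add_zero]
  let P : Sylow r G := Sylow.ofCard H (by rw [hH, hf])
  have hz : IsPGroup r ↥(zpowers g) := by
    rw [IsPGroup.iff_card]
    obtain ⟨k, hk⟩ := hg
    rw [Nat.card_zpowers]
    obtain ⟨j, -, hj⟩ := (Nat.dvd_prime_pow hr).1 (orderOf_dvd_of_pow_eq_one hk)
    exact ⟨j, hj⟩
  obtain ⟨Q, hQ⟩ := hz.exists_le_sylow
  obtain ⟨x, hx⟩ := MulAction.exists_smul_eq G Q P
  refine ⟨x, ?_⟩
  have h1 : g ∈ (Q : Subgroup G) := hQ (mem_zpowers g)
  have h2 : x * g * x⁻¹ ∈ ((x • Q : Sylow r G) : Subgroup G) := by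
    rw [Sylow.coe_subgroup_smul]
    exact ⟨g, h1, rfl⟩
  rw [hx] at h2
  exact h2

end gen

/-- the last step, for groups of permutations -/
theorem pr_of_exists {N : ℕ} [NeZero N] {J : Subgroup (Equiv.Perm (Fin N))} {l l' n : ℕ} (hl : l.Prime) (hl' : l'.Prime)
    (hiso : ∀ x : ↥J, l ∣ orderOf x ∨ l' ∣ orderOf x → (orderOf x).Coprime n) (g : ↥J)
    (h : ∃ a ∈ J, Cyc l l' a ∧ Cyc l l' (a * (g : Equiv.Perm (Fin N)))) : Pr n g := by
  obtain ⟨a, ha, h1, h2⟩ := h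
  refine ⟨⟨a, ha⟩⁻¹, ⟨a, ha⟩ * g, by group, ?_, ?_⟩
  · rw [orderOf_inv]
    refine hiso _ ?_
    rw [orderOf_mk]
    exact h1.dvd hl hl'
  · refine hiso _ ?_
    rw [← orderOf_coe]
    exact h2.dvd hl hl'

namespace G23

/-! ### the two chains -/

theorem inG_of_word' {P : ℕ} {L : List ℕ} (h : chkWord 351 P L = true) (hL : ∀ Q ∈ L, ∃ j, Q = T j) :
    ∃ g ∈ J, Rep g (lk P) := inG_of_word hL h

theorem exU : ∃ H ≤ J, Gd (N := 351) UL6 729 H := by
  obtain ⟨x1, m1, r1⟩ := inG_of_word' wU1 (by simp)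
  obtain ⟨x2, m2, r2⟩ := inG_of_word' wU2 (by simp)
  obtain ⟨x3, m3, r3⟩ := inG_of_word' wU3 (by simp)
  obtain ⟨x4, m4, r4⟩ := inG_of_word' wU4 (by simp)
  obtain ⟨x5, m5, r5⟩ := inG_of_word' wU5 (by simp)
  obtain ⟨x6, m6, r6⟩ := inG_of_word' wU6 (by simp)
  have g1 : Gd (N := 351) UL1 3 _ := Gd.nil.stepB r1 Nat.prime_three sU1
  have g2 : Gd (N := 351) UL2 9 _ := g1.stepB r2 Nat.prime_three sU2
  have g3 : Gd (N := 351) UL3 27 _ := g2.stepB r3 Nat.prime_three sU3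
  have g4 : Gd (N := 351) UL4 81 _ := g3.stepB r4 Nat.prime_three sU4
  have g5 : Gd (N := 351) UL5 243 _ := g4.stepB r5 Nat.prime_three sU5
  have g6 : Gd (N := 351) UL6 729 _ := g5.stepB r6 Nat.prime_three sU6
  refine ⟨_, ?_, g6⟩
  simp only [sup_le_iff, zpowers_le]
  exact ⟨⟨⟨⟨⟨⟨bot_le, m1⟩, m2⟩, m3⟩, m4⟩, m5⟩, m6⟩

/-- the tables of the second chain commute with the first one -/
def comB (P : ℕ) : Bool := allB (fun i => Nat.beq (lk P (lk C1 i)) (lk C1 (lk P i))) 351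

theorem comB_spec {P : ℕ} (h : comB P = true) {g z : Equiv.Perm (Fin 351)} (hg : Rep g (lk P)) (hz : Rep z (lk C1)) :
    g * z = z * g := by
  refine Equiv.ext fun i => Fin.ext ?_
  rw [(hg.mul hz) i, (hz.mul hg) i]
  exact Nat.eq_of_beq_eq_true ((allB_iff _ _).1 h i i.2)

theorem exC : ∃ H ≤ J, Gd (N := 351) CL8 576 H ∧ ∃ z ∈ J, orderOf z = 2 ∧ H ≤ centralizer {z} := by
  obtain ⟨x1, m1, r1⟩ := inG_of_word' wC1 (by simp)
  obtain ⟨x2, m2, r2⟩ := inG_of_word' wC2 (by simp)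
  obtain ⟨x3, m3, r3⟩ := inG_of_word' wC3 (by simp)
  obtain ⟨x4, m4, r4⟩ := inG_of_word' wC4 (by simp)
  obtain ⟨x5, m5, r5⟩ := inG_of_word' wC5 (by simp)
  obtain ⟨x6, m6, r6⟩ := inG_of_word' wC6 (by simp)
  obtain ⟨x7, m7, r7⟩ := inG_of_word' wC7 (by simp)
  obtain ⟨x8, m8, r8⟩ := inG_of_word' wC8 (by simp)
  have g1 : Gd (N := 351) CL1 2 _ := Gd.nil.stepB r1 Nat.prime_two sC1
  have g2 : Gd (N := 351) CL2 4 _ := g1.stepB r2 Nat.prime_two sC2
  have g3 : Gd (N := 351) CL3 8 _ := g2.stepB r3 Nat.prime_two sC3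
  have g4 : Gd (N := 351) CL4 16 _ := g3.stepB r4 Nat.prime_two sC4
  have g5 : Gd (N := 351) CL5 32 _ := g4.stepB r5 Nat.prime_two sC5
  have g6 : Gd (N := 351) CL6 96 _ := g5.stepB r6 Nat.prime_three sC6
  have g7 : Gd (N := 351) CL7 288 _ := g6.stepB r7 Nat.prime_three sC7
  have g8 : Gd (N := 351) CL8 576 _ := g7.stepB r8 Nat.prime_two sC8
  refine ⟨_, ?_, g8, x1, m1, ?_, ?_⟩
  · simp only [sup_le_iff, zpowers_le]
    exact ⟨⟨⟨⟨⟨⟨⟨⟨bot_le, m1⟩, m2⟩, m3⟩, m4⟩, m5⟩, m6⟩, m7⟩, m8⟩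
  · have h1 : Nat.card ↥((⊥ : Subgroup (Equiv.Perm (Fin 351))) ⊔ zpowers x1) = 2 := g1.card
    rwa [bot_sup_eq, Nat.card_zpowers] at h1
  · simp only [sup_le_iff, zpowers_le, mem_centralizer_singleton_iff]
    exact ⟨⟨⟨⟨⟨⟨⟨⟨bot_le, trivial⟩,
      comB_spec (P := C2) (by decide +kernel) r2 r1⟩, comB_spec (P := C3) (by decide +kernel) r3 r1⟩,
      comB_spec (P := C4) (by decide +kernel) r4 r1⟩, comB_spec (P := C5) (by decide +kernel) r5 r1⟩,
      comB_spec (P := C6) (by decide +kernel) r6 r1⟩, comB_spec (P := C7) (by decide +kernel) r7 r1⟩,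
      comB_spec (P := C8) (by decide +kernel) r8 r1⟩

theorem As_ok : ∀ A ∈ A0 :: As, ∃ a ∈ J, Rep a (lk A) ∧ Cyc (N := 351) 7 (7 + 6) a := by
  have key : ∀ {A : ℕ} {L : List ℕ}, chkWord 351 A L = true → (∀ Q ∈ L, ∃ j, Q = T j) →
      cycB 7 6 (lk A) = true → ∃ a ∈ J, Rep a (lk A) ∧ Cyc (N := 351) 7 (7 + 6) a := by
    intro A L h hL hc
    obtain ⟨a, ha, hr⟩ := inG_of_word' h hL
    exact ⟨a, ha, hr, cycB_spec (by norm_num) hr hc⟩
  intro A hA
  simp only [As, List.mem_cons, List.not_mem_nil, or_false] at hA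
  rcases hA with rfl | rfl | rfl | rfl | rfl | rfl | rfl | rfl | rfl | rfl | rfl
  · exact key wA0 (by simp) cA0
  · exact key wA0 (by simp) cA0
  · exact key wA1 (by simp) cA1
  · exact key wA2 (by simp) cA2
  · exact key wA3 (by simp) cA3
  · exact key wA4 (by simp) cA4
  · exact key wA5 (by simp) cA5
  · exact key wA6 (by simp) cA6
  · exact key wA7 (by simp) cA7
  · exact key wA8 (by simp) cA8
  · exact key wA9 (by simp) cA9

/-! ### arithmetic -/

theorem card_Z3 : Fintype.card (ZMod 3) = 3 := ZMod.card 3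

theorem prim3 : H436.Prim 3 3 13 := by
  obtain ⟨r, hr⟩ := H436.exists_prim (q := 3) (e := 3) (by norm_num) (by norm_num) (by norm_num)
  have h1 : r ∣ 2 * 13 := (hr.dvd_iff 3).2 dvd_rfl
  have h2 : r = 2 ∨ r = 13 := by
    rcases (hr.prime.dvd_mul).1 h1 with h | h
    · exact Or.inl ((Nat.prime_dvd_prime_iff_eq hr.prime Nat.prime_two).1 h)
    · exact Or.inr ((Nat.prime_dvd_prime_iff_eq hr.prime (by norm_num)).1 h)
  rcases h2 with rfl | rfl
  · have h3 := (hr.dvd_iff 1).1 (by norm_num)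
    omega
  · exact hr

theorem prim6 : H436.Prim 3 6 7 := by
  obtain ⟨r, hr⟩ := H436.exists_prim (q := 3) (e := 6) (by norm_num) (by norm_num) (by norm_num)
  have h1 : r ∣ 2 ^ 3 * (13 * 7) := (hr.dvd_iff 6).2 dvd_rfl
  have h2 : r = 2 ∨ r = 13 ∨ r = 7 := by
    rcases (hr.prime.dvd_mul).1 h1 with h | h
    · exact Or.inl ((Nat.prime_dvd_prime_iff_eq hr.prime Nat.prime_two).1 (hr.prime.dvd_of_dvd_pow h))
    · rcases (hr.prime.dvd_mul).1 h with h | h
      · exact Or.inr (Or.inl ((Nat.prime_dvd_prime_iff_eq hr.prime (by norm_num)).1 h))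
      · exact Or.inr (Or.inr ((Nat.prime_dvd_prime_iff_eq hr.prime (by norm_num)).1 h))
  rcases h2 with rfl | rfl | rfl
  · have h3 := (hr.dvd_iff 1).1 (by norm_num)
    omega
  · have h3 := (hr.dvd_iff 3).1 (by norm_num)
    omega
  · exact hr

/-- **`All 6 J`** -/
theorem all_J : All 6 ↥J := by
  obtain ⟨e⟩ := exists_iso
  have hb3 : Cfsg.Agent.H56.Exc.Big ↥J 13 13 6 :=
    (Cfsg.Agent.H56.Exc.big_G2_3 (F := ZMod 3) card_Z3 (m := 13) (by norm_num) prim3).congr e.symm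
  have hb6 : Cfsg.Agent.H56.Exc.Big ↥J 7 7 6 :=
    (Cfsg.Agent.H56.Exc.big_G2_6 (F := ZMod 3) card_Z3 (m := 7) (by norm_num) prim6).congr e.symm
  have hiso : ∀ x : ↥J, 7 ∣ orderOf x ∨ 13 ∣ orderOf x → (orderOf x).Coprime 6 := by
    rintro x (h | h)
    · rw [orderOf_eq_of_dvd hb6.card h]; decide
    · rw [orderOf_eq_of_dvd hb3.card h]; decide
  have hcard : Nat.card ↥J = 4245696 := by
    rw [Nat.card_congr e.toEquiv, Cfsg.Agent.S1059.result card_Z3]
    norm_num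
  have hodd : Odd (Fintype.card (ZMod 3)) := by rw [card_Z3]; decide
  intro g
  by_cases h7 : 7 ∣ orderOf g ∨ 13 ∣ orderOf g
  · exact Pr.of_coprime (hiso g h7)
  rw [not_or] at h7
  by_cases h2 : 2 ∣ orderOf g
  · -- even order
    obtain ⟨H, hHJ, hH, z, hzJ, hz2, hHz⟩ := exC
    obtain ⟨m, hm⟩ := h2
    have hpos : 0 < orderOf g := orderOf_pos g
    have hm0 : m ≠ 0 := by rintro rfl; rw [mul_zero] at hm; omega
    have h1 : orderOf (g ^ m) = 2 := by
      rw [orderOf_pow' g hm0, hm, Nat.gcd_mul_left_left, Nat.mul_div_cancel _ (Nat.pos_of_ne_zero hm0)]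
    have hzo : orderOf (⟨z, hzJ⟩ : ↥J) = 2 := by rw [orderOf_mk, hz2]
    have hconj : IsConj (g ^ m) (⟨z, hzJ⟩ : ↥J) := by
      have h3 := Cfsg.Agent.S4278.result (F := ZMod 3) hodd (e (g ^ m)) (e ⟨z, hzJ⟩)
        (by rw [MulEquiv.orderOf_eq, h1]) (by rw [MulEquiv.orderOf_eq, hzo])
      obtain ⟨c, hc⟩ := isConj_iff.1 h3
      refine isConj_iff.2 ⟨e.symm c, ?_⟩
      apply e.injective
      rw [map_mul, map_mul, map_inv, MulEquiv.apply_symm_apply, hc]
    obtain ⟨c, hc⟩ := isConj_iff.1 hconj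
    have hcz : c * g * c⁻¹ ∈ centralizer {(⟨z, hzJ⟩ : ↥J)} := by
      rw [mem_centralizer_singleton_iff, ← hc]
      group
    have hcard' : Nat.card ↥(centralizer {(⟨z, hzJ⟩ : ↥J)}) = 576 := by
      have h4 := (Cfsg.Agent.S4279.result (F := ZMod 3) hodd (e ⟨z, hzJ⟩)
        (by rw [MulEquiv.orderOf_eq, hzo])).1
      rw [card_Z3] at h4
      have h5 : Nat.card ↥(centralizer {(⟨z, hzJ⟩ : ↥J)}) = Nat.card ↥(centralizer {e ⟨z, hzJ⟩}) := by
        refine Nat.card_congr (e.toEquiv.subtypeEquiv fun x => ?_)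
        rw [mem_centralizer_singleton_iff]
        show _ ↔ e x ∈ centralizer {e ⟨z, hzJ⟩}
        rw [mem_centralizer_singleton_iff, ← map_mul, ← map_mul, e.injective.eq_iff]
      rw [h5, h4]
      norm_num
    have heq : H.subgroupOf J = centralizer {(⟨z, hzJ⟩ : ↥J)} := by
      refine Subgroup.eq_of_le_of_card_ge ?_ ?_
      · intro x hx
        have h6 := hHz (mem_subgroupOf.1 hx)
        rw [mem_centralizer_singleton_iff] at h6 ⊢
        exact Subtype.ext h6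
      · rw [hcard', Nat.card_congr (subgroupOfEquivOfLe hHJ).toEquiv, hH.card]
    rw [← heq, mem_subgroupOf] at hcz
    refine Pr.of_conj (x := c) (pr_of_exists (l := 7) (l' := 13) (by norm_num) (by norm_num) hiso _ ?_)
    exact exists_of_wit (l := 7) (k := 6) (by norm_num) hH As_ok
      (fun n hn => (allB_iff _ _).1 witC n hn) hcz
  · -- a `3`-element
    obtain ⟨H, hHJ, hH⟩ := exU
    have hdvd : orderOf g ∣ 3 ^ 6 := by
      have h3 : orderOf g ∣ 3 ^ 6 * (2 ^ 6 * (7 * 13)) := by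
        have := orderOf_dvd_natCard g
        rwa [hcard] at this
      have hco : Nat.Coprime (orderOf g) (2 ^ 6 * (7 * 13)) := by
        refine Nat.Coprime.mul_right (Nat.Coprime.pow_right _ ?_) (Nat.Coprime.mul_right ?_ ?_)
        · exact ((Nat.Prime.coprime_iff_not_dvd Nat.prime_two).2 h2).symm
        · exact ((Nat.Prime.coprime_iff_not_dvd (by norm_num)).2 h7.1).symm
        · exact ((Nat.Prime.coprime_iff_not_dvd (by norm_num)).2 h7.2).symm
      exact hco.dvd_of_dvd_mul_right h3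
    obtain ⟨c, hc⟩ := exists_conj_mem (n := 6) (m := 2 ^ 6 * (7 * 13)) Nat.prime_three (by rw [hcard]; norm_num)
      (by norm_num) (H := H.subgroupOf J)
      (by rw [Nat.card_congr (subgroupOfEquivOfLe hHJ).toEquiv, hH.card]; norm_num)
      (g := g) ⟨6, orderOf_dvd_iff_pow_eq_one.1 hdvd⟩
    rw [mem_subgroupOf] at hc
    refine Pr.of_conj (x := c) (pr_of_exists (l := 7) (l' := 13) (by norm_num) (by norm_num) hiso _ ?_)
    exact exists_of_wit (l := 7) (k := 6) (by norm_num) hH As_ok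
      (fun n hn => (allB_iff _ _).1 witU n hn) hc

end G23

/-- **`G₂(3)`: every element is a product of two elements of order prime to `6`.** -/
theorem six_g2_three {F : Type*} [Field F] [Fintype F] (hF : Fintype.card F = 3) :
    All 6 ↥(Cfsg.Lie.chevG2.group F) := by
  obtain ⟨e⟩ := G23.exists_iso
  have hc : Fintype.card (ZMod 3) = Fintype.card F := by rw [G23.card_Z3, hF]
  exact (G23.all_J.congr e).congr (Cfsg.Agent.ChevalleyStructure.FieldIso.groupEquiv Cfsg.Lie.chevG2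
    (FiniteField.ringEquivOfCardEq hc))

end Cfsg.Agent.H983.Pw
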