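import Cfsg.Agent.SporadicA.PermTab
import Cfsg.Agent.H78.Pw.Base

/-!
# Polycyclic chains of permutations given by tables, and products of two elements (helper983)

* `nf L n` : normal form number `n` of the chain `L` of tables, on points;
* `Gd` : `H` is the group of all normal forms, of order `M`; `Gd.step`, `Gd.stepB` : one more generator;
* `Cyc` : a cycle of length `7` or `13` at the point `0`; `pr_of_wit` : the Boolean check that every normal form is a
  product of two such permutations.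
-/

set_option autoImplicit false

namespace Cfsg.Agent.H983.Pw

open Equiv Subgroup Cfsg.Agent.SporadicA.PermTab

/-- `k`-fold iterate -/
def it (f : ℕ → ℕ) (k p : ℕ) : ℕ := Nat.rec p (fun _ ih => f ih) k

theorem it_succ (f : ℕ → ℕ) (k p : ℕ) : it f (k + 1) p = f (it f k p) := rfl

/-- normal form number `n`: entries `(P, M)`, outermost first; `M` is the order of the rest of the chain -/
def nf (L : List (ℕ × ℕ)) : ℕ → ℕ → ℕ :=
  List.rec (fun _ p => p) (fun a _ ih n p => it (lk a.1) (Nat.div n a.2) (ih (Nat.mod n a.2) p)) L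

theorem nf_nil (n p : ℕ) : nf [] n p = p := rfl

theorem nf_cons (P M : ℕ) (L : List (ℕ × ℕ)) (n p : ℕ) :
    nf ((P, M) :: L) n p = it (lk P) (n / M) (nf L (n % M) p) := rfl

variable {N : ℕ}

/-- `g` acts as the function `f` -/
def Rep (g : Perm (Fin N)) (f : ℕ → ℕ) : Prop := ∀ i : Fin N, (g i : ℕ) = f i

theorem Rep.ext {g h : Perm (Fin N)} {f : ℕ → ℕ} (hg : Rep g f) (hh : Rep h f) : g = h :=
  Equiv.ext fun i => Fin.ext (by rw [hg i, hh i])

theorem Rep.one : Rep (1 : Perm (Fin N)) (fun p => p) := fun _ => rfl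

theorem Rep.mul {g h : Perm (Fin N)} {a b : ℕ → ℕ} (hg : Rep g a) (hh : Rep h b) :
    Rep (g * h) (fun p => a (b p)) := fun i => by
  show (g (h i) : ℕ) = a (b i)
  rw [hg (h i), hh i]

theorem Rep.it {x g : Perm (Fin N)} {a b : ℕ → ℕ} (hx : Rep x a) (hg : Rep g b) (k : ℕ) :
    Rep (x ^ k * g) (fun p => it a k (b p)) := by
  induction k with
  | zero => rw [pow_zero, one_mul]; exact hg
  | succ k ih => rw [pow_succ', mul_assoc]; exact hx.mul ih

theorem Rep.iter {x : Perm (Fin N)} {a : ℕ → ℕ} (hx : Rep x a) (k : ℕ) :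
    Rep (x ^ k) (fun p => Cfsg.Agent.H983.Pw.it a k p) := by
  have := hx.it Rep.one k
  rwa [mul_one] at this

/-- tables of the chain -/
def tabs (L : List (ℕ × ℕ)) : List ℕ := L.map Prod.fst

/-- `H` is the group of the normal forms of the chain `L` -/
structure Gd (L : List (ℕ × ℕ)) (M : ℕ) (H : Subgroup (Perm (Fin N))) : Prop where
  mem : ∀ g ∈ H, ∃ n < M, Rep g (nf L n)
  rep : ∀ n < M, ∃ g ∈ H, Rep g (nf L n)
  card : Nat.card ↥H = M
  gen : H = closure {g | ∃ P ∈ tabs L, Rep g (lk P)}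

theorem Gd.nil : Gd (N := N) [] 1 ⊥ where
  mem g hg := ⟨0, one_pos, by rw [mem_bot.1 hg]; exact Rep.one⟩
  rep n _ := ⟨1, one_mem _, Rep.one⟩
  card := by simp
  gen := by
    rw [eq_comm, closure_eq_bot_iff]
    rintro g ⟨P, hP, -⟩
    exact absurd hP List.not_mem_nil

/-- the group of the products `x ^ i * h` -/
theorem step_mem {G : Type*} [Group G] {H : Subgroup G} {x : G} {r : ℕ} (hr : 0 < r) (hx : x ^ r ∈ H)
    (hn : ∀ h ∈ H, x * h * x⁻¹ ∈ H) {g : G} (hg : g ∈ H ⊔ zpowers x) : ∃ i < r, ∃ h ∈ H, g = x ^ i * h := by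
  -- powers of `x` normalise `H`
  have hn' : ∀ (i : ℕ), ∀ h ∈ H, x ^ i * h * (x ^ i)⁻¹ ∈ H := by
    intro i
    induction i with
    | zero => intro h hh; simpa using hh
    | succ i ih =>
      intro h hh
      have := hn _ (ih h hh)
      have e : x * (x ^ i * h * (x ^ i)⁻¹) * x⁻¹ = x ^ (i + 1) * h * (x ^ (i + 1))⁻¹ := by
        rw [pow_succ']; group
      rwa [e] at this
  have hinv : x⁻¹ = x ^ (r - 1) * (x ^ r)⁻¹ := by
    have e : x ^ r = x * x ^ (r - 1) := by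
      conv_lhs => rw [show r = (r - 1) + 1 by omega, pow_succ']
    have e' : x ^ r = x ^ (r - 1) * x := by
      conv_lhs => rw [show r = (r - 1) + 1 by omega, pow_succ]
    rw [e', mul_inv_rev]
    group
  -- conjugation by powers of `x` to the right: `h * x ^ i = x ^ i * h'`
  have hninv : ∀ (i : ℕ), ∀ h ∈ H, (x ^ i)⁻¹ * h * x ^ i ∈ H := by
    intro i h hh
    -- (x^i)⁻¹ = x^{i(r-1)} * (x^{ri})⁻¹
    have hri : (x ^ r) ^ i ∈ H := pow_mem hx i
    have e : x ^ (i * (r - 1)) * x ^ i = (x ^ r) ^ i := by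
      rw [← pow_add, ← pow_mul]
      congr 1
      obtain ⟨s, rfl⟩ : ∃ s, r = s + 1 := ⟨r - 1, by omega⟩
      rw [Nat.add_sub_cancel]; ring
    have e2 : x ^ i = (x ^ (i * (r - 1)))⁻¹ * (x ^ r) ^ i := by
      rw [← e, inv_mul_cancel_left]
    have h1 := hn' (i * (r - 1)) h hh
    have h2 : ((x ^ r) ^ i)⁻¹ * (x ^ (i * (r - 1)) * h * (x ^ (i * (r - 1)))⁻¹) * (x ^ r) ^ i ∈ H :=
      H.mul_mem (H.mul_mem (H.inv_mem hri) h1) hri
    have e3 : (x ^ i)⁻¹ * h * x ^ i =
        ((x ^ r) ^ i)⁻¹ * (x ^ (i * (r - 1)) * h * (x ^ (i * (r - 1)))⁻¹) * (x ^ r) ^ i := by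
      rw [e2, mul_inv_rev, inv_inv]
      simp only [mul_assoc]
    rw [e3]; exact h2
  -- reduce exponents
  have hred : ∀ (i : ℕ), ∀ h ∈ H, ∃ j < r, ∃ k ∈ H, x ^ i * h = x ^ j * k := by
    intro i h hh
    refine ⟨i % r, Nat.mod_lt _ hr, (x ^ r) ^ (i / r) * h, H.mul_mem (pow_mem hx _) hh, ?_⟩
    rw [← mul_assoc, ← pow_mul, ← pow_add, Nat.mod_add_div]
  rw [← closure_eq H, zpowers_eq_closure, ← Subgroup.closure_union] at hg
  induction hg using closure_induction with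
  | mem g hg =>
    rcases hg with h | h
    · exact ⟨0, hr, g, h, by simp⟩
    · rw [Set.mem_singleton_iff] at h
      subst h
      obtain ⟨j, hj, k, hk, e⟩ := hred 1 1 H.one_mem
      exact ⟨j, hj, k, hk, by rw [← e]; simp⟩
  | one => exact ⟨0, hr, 1, H.one_mem, by simp⟩
  | mul a b _ _ iha ihb =>
    obtain ⟨i, hi, h, hh, rfl⟩ := iha
    obtain ⟨j, hj, k, hk, rfl⟩ := ihb
    obtain ⟨m, hm, l, hl, e⟩ := hred (i + j) ((x ^ j)⁻¹ * h * x ^ j * k)
      (H.mul_mem (hninv j h hh) hk)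
    refine ⟨m, hm, l, hl, ?_⟩
    rw [← e, pow_add]
    group
  | inv a _ iha =>
    obtain ⟨i, hi, h, hh, rfl⟩ := iha
    -- (x^i h)⁻¹ = h⁻¹ x^{-i} = x^{i(r-1)} (x^{ri})⁻¹ ... 
    have hri : (x ^ r) ^ i ∈ H := pow_mem hx i
    obtain ⟨m, hm, l, hl, e⟩ := hred (i * (r - 1))
      (((x ^ r) ^ i)⁻¹ * (x ^ i * h⁻¹ * (x ^ i)⁻¹)) (H.mul_mem (H.inv_mem hri) (hn' i _ (H.inv_mem hh)))
    refine ⟨m, hm, l, hl, ?_⟩
    have e0 : x ^ (i * (r - 1)) * x ^ i = (x ^ r) ^ i := by
      rw [← pow_add, ← pow_mul]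
      congr 1
      obtain ⟨s, rfl⟩ : ∃ s, r = s + 1 := ⟨r - 1, by omega⟩
      rw [Nat.add_sub_cancel]; ring
    have e1 : x ^ (i * (r - 1)) = (x ^ r) ^ i * (x ^ i)⁻¹ := by rw [← e0]; group
    have e4 : Commute ((x ^ r) ^ i) (x ^ i) := by
      rw [← pow_mul]; exact (Commute.refl x).pow_pow _ _
    have e5 : (x ^ r) ^ i * (x ^ i)⁻¹ = (x ^ i)⁻¹ * (x ^ r) ^ i := (e4.inv_right).eq
    rw [← e, e1, e5]
    group

theorem card_step {G : Type*} [Group G] [Finite G] {H : Subgroup G} {x : G} {r : ℕ} (hr : r.Prime)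
    (hx : x ^ r ∈ H) (hn : ∀ h ∈ H, x * h * x⁻¹ ∈ H) (hxH : x ∉ H) :
    Nat.card ↥(H ⊔ zpowers x) = r * Nat.card ↥H := by
  -- the map `(i, h) ↦ x ^ i * h` is a bijection
  have hinj : ∀ i < r, ∀ j < r, ∀ h ∈ H, ∀ k ∈ H, x ^ i * h = x ^ j * k → i ≤ j → i = j := by
    intro i hi j hj h hh k hk e hij
    by_contra hne
    have h1 : x ^ (j - i) ∈ H := by
      have e1 : x ^ j = x ^ i * x ^ (j - i) := by rw [← pow_add]; congr 1; omega
      rw [e1, mul_assoc] at e
      have e2 := mul_left_cancel e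
      have e3 : x ^ (j - i) = h * k⁻¹ := by rw [e2]; group
      rw [e3]
      exact H.mul_mem hh (H.inv_mem hk)
    have hco : Nat.Coprime (j - i) r := by
      rw [Nat.coprime_comm, hr.coprime_iff_not_dvd]
      exact Nat.not_dvd_of_pos_of_lt (by omega) (by omega)
    apply hxH
    have h2 : x ^ ((Nat.gcd (j - i) r : ℕ) : ℤ) ∈ H := by
      rw [Nat.gcd_eq_gcd_ab, zpow_add, zpow_mul, zpow_mul, zpow_natCast, zpow_natCast]
      exact H.mul_mem (H.zpow_mem h1 _) (H.zpow_mem hx _)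
    rw [hco.gcd_eq_one] at h2
    simpa using h2
  have e : Fin r × ↥H ≃ ↥(H ⊔ zpowers x) := by
    refine Equiv.ofBijective (fun y => ⟨x ^ (y.1 : ℕ) * y.2, ?_⟩) ⟨?_, ?_⟩
    · exact mul_mem (pow_mem (mem_sup_right (mem_zpowers x)) _) (mem_sup_left y.2.2)
    · rintro ⟨i, h⟩ ⟨j, k⟩ hij
      have h1 : x ^ (i : ℕ) * (h : G) = x ^ (j : ℕ) * k := congrArg Subtype.val hij
      have h2 : (i : ℕ) = j := by
        rcases le_total (i : ℕ) j with h3 | h3
        · exact hinj i i.2 j j.2 h h.2 k k.2 h1 h3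
        · exact (hinj j j.2 i i.2 k k.2 h h.2 h1.symm h3).symm
      have h3 : i = j := Fin.ext h2
      subst h3
      rw [Prod.mk.injEq]
      exact ⟨rfl, Subtype.ext (mul_left_cancel h1)⟩
    · rintro ⟨g, hg⟩
      obtain ⟨i, hi, h, hh, rfl⟩ := step_mem hr.pos hx hn hg
      exact ⟨(⟨i, hi⟩, ⟨h, hh⟩), rfl⟩
  rw [← Nat.card_congr e, Nat.card_prod, Nat.card_fin]

/-- one more generator -/
theorem Gd.step {L : List (ℕ × ℕ)} {M : ℕ} {H : Subgroup (Perm (Fin N))} (h : Gd L M H) {x : Perm (Fin N)}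
    {P r : ℕ} (hxP : Rep x (lk P)) (hr : r.Prime) (hx : x ^ r ∈ H) (hn : ∀ h ∈ H, x * h * x⁻¹ ∈ H)
    (hxH : x ∉ H) : Gd ((P, M) :: L) (r * M) (H ⊔ zpowers x) := by
  have hM : 0 < M := by rw [← h.card]; exact Nat.card_pos
  refine ⟨fun g hg => ?_, fun n hn' => ?_, ?_, ?_⟩
  · obtain ⟨i, hi, k, hk, rfl⟩ := step_mem hr.pos hx hn hg
    obtain ⟨n, hn', hr'⟩ := h.mem k hk
    refine ⟨i * M + n, ?_, ?_⟩
    · calc i * M + n < i * M + M := by omega
        _ = (i + 1) * M := by ring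
        _ ≤ r * M := Nat.mul_le_mul_right _ hi
    · have := hxP.it hr' i
      intro j
      rw [this j, nf_cons, Nat.add_comm, Nat.add_mul_mod_self_right, Nat.add_mul_div_right _ _ hM,
        Nat.div_eq_of_lt hn', Nat.mod_eq_of_lt hn', Nat.zero_add]
  · obtain ⟨k, hk, hr'⟩ := h.rep (n % M) (Nat.mod_lt _ hM)
    refine ⟨x ^ (n / M) * k, mul_mem (pow_mem (mem_sup_right (mem_zpowers x)) _) (mem_sup_left hk), ?_⟩
    exact hxP.it hr' (n / M)
  · rw [card_step hr hx hn hxH, h.card]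
  · rw [h.gen, zpowers_eq_closure, ← Subgroup.closure_union]
    congr 1
    ext g
    constructor
    · rintro (⟨Q, hQ, hg⟩ | hg)
      · exact ⟨Q, List.mem_cons_of_mem _ hQ, hg⟩
      · rw [Set.mem_singleton_iff] at hg
        exact ⟨P, List.mem_cons_self, hg ▸ hxP⟩
    · rintro ⟨Q, hQ, hg⟩
      rcases List.mem_cons.1 hQ with h1 | h1
      · right
        subst h1
        exact Rep.ext hg hxP
      · exact Or.inl ⟨Q, h1, hg⟩

/-! ### Boolean checks -/

/-- `x_P * x_T = h_n * x_P` -/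
def relB (N P : ℕ) (L : List (ℕ × ℕ)) (T n : ℕ) : Bool :=
  allB (fun i => Nat.beq (lk P (lk T i)) (nf L n (lk P i))) N

/-- all conjugates of the generators -/
def relsB (N M P : ℕ) (L : List (ℕ × ℕ)) (Ts : List ℕ) : List ℕ → Bool :=
  List.rec (fun _ => true)
    (fun T _ ih D => List.rec false (fun n D' _ => band (Nat.blt n M) (band (relB N P L T n) (ih D'))) D) Ts

theorem relsB_spec {N M P : ℕ} {L : List (ℕ × ℕ)} {Ts D : List ℕ} (h : relsB N M P L Ts D = true) :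
    ∀ T ∈ Ts, ∃ n < M, relB N P L T n = true := by
  induction Ts generalizing D with
  | nil => intro T hT; exact absurd hT List.not_mem_nil
  | cons T Ts ih =>
    cases D with
    | nil => exact absurd h Bool.false_ne_true
    | cons n D =>
      have h' : band (Nat.blt n M) (band (relB N P L T n) (relsB N M P L Ts D)) = true := h
      rw [band_eq_true, band_eq_true] at h'
      intro T' hT'
      rcases List.mem_cons.1 hT' with e | e
      · subst e
        exact ⟨n, Nat.blt_eq ▸ h'.1, h'.2.1⟩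
      · exact ih h'.2.2 T' e

/-- the power -/
def powB (N P r : ℕ) (L : List (ℕ × ℕ)) (m : ℕ) : Bool :=
  allB (fun i => Nat.beq (it (lk P) r i) (nf L m i)) N

/-- some base point distinguishes -/
def difB (P : ℕ) (L : List (ℕ × ℕ)) (B : List ℕ) (n : ℕ) : Bool :=
  List.rec false (fun b _ ih => cond (nbeq (nf L n b) (lk P b)) true ih) B

theorem difB_spec {P : ℕ} {L : List (ℕ × ℕ)} {B : List ℕ} {n : ℕ} (h : difB P L B n = true) :
    ∃ b ∈ B, nf L n b ≠ lk P b := by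
  induction B with
  | nil => exact absurd h Bool.false_ne_true
  | cons b B ih =>
    have h' : cond (nbeq (nf L n b) (lk P b)) true (difB P L B n) = true := h
    cases hb : nbeq (nf L n b) (lk P b) with
    | true => exact ⟨b, List.mem_cons_self, (nbeq_iff _ _).1 hb⟩
    | false =>
      rw [hb] at h'
      obtain ⟨c, hc, h2⟩ := ih h'
      exact ⟨c, List.mem_cons_of_mem _ hc, h2⟩

/-- the base points are points -/
def ltB (N : ℕ) (B : List ℕ) : Bool := List.rec true (fun b _ ih => band (Nat.blt b N) ih) B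

theorem ltB_spec {N : ℕ} {B : List ℕ} (h : ltB N B = true) : ∀ b ∈ B, b < N := by
  induction B with
  | nil => intro b hb; exact absurd hb List.not_mem_nil
  | cons b B ih =>
    have h' : band (Nat.blt b N) (ltB N B) = true := h
    rw [band_eq_true] at h'
    intro c hc
    rcases List.mem_cons.1 hc with e | e
    · subst e; exact Nat.blt_eq ▸ h'.1
    · exact ih h'.2 c e

/-- everything for one step -/
def stepB (N M P r m : ℕ) (L : List (ℕ × ℕ)) (D B : List ℕ) : Bool :=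
  band (ltB N B) (band (Nat.blt m M) (band (powB N P r L m) (band (relsB N M P L (tabs L) D)
    (allB (difB P L B) M))))

theorem Gd.stepB {L : List (ℕ × ℕ)} {M : ℕ} {H : Subgroup (Perm (Fin N))} (h : Gd L M H) {x : Perm (Fin N)}
    {P r m : ℕ} {D B : List ℕ} (hxP : Rep x (lk P)) (hr : r.Prime)
    (hc : Cfsg.Agent.H983.Pw.stepB N M P r m L D B = true) : Gd ((P, M) :: L) (r * M) (H ⊔ zpowers x) := by
  unfold Cfsg.Agent.H983.Pw.stepB at hc
  rw [band_eq_true, band_eq_true, band_eq_true, band_eq_true] at hc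
  obtain ⟨hB, hm, hp, hrel, hd⟩ := hc
  refine h.step hxP hr ?_ ?_ ?_
  · obtain ⟨g, hg, hgr⟩ := h.rep m (Nat.blt_eq ▸ hm)
    have e : x ^ r = g := by
      refine Equiv.ext fun i => Fin.ext ?_
      rw [hxP.iter r i, hgr i]
      exact Nat.eq_of_beq_eq_true ((allB_iff _ _).1 hp i i.2)
    rw [e]; exact hg
  · -- generators
    have hgen : ∀ k ∈ {g : Perm (Fin N) | ∃ P ∈ tabs L, Rep g (lk P)}, x * k * x⁻¹ ∈ H := by
      rintro k ⟨T, hT, hk⟩
      obtain ⟨n, hn, hr'⟩ := relsB_spec hrel T hT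
      obtain ⟨g, hg, hgr⟩ := h.rep n hn
      have e : x * k = g * x := by
        refine Equiv.ext fun i => Fin.ext ?_
        rw [(hxP.mul hk) i, (hgr.mul hxP) i]
        exact Nat.eq_of_beq_eq_true ((allB_iff _ _).1 hr' i i.2)
      rw [e, mul_inv_cancel_right]
      exact hg
    intro k hk
    rw [h.gen] at hk
    induction hk using closure_induction with
    | mem k hk => exact hgen k hk
    | one => simpa using H.one_mem
    | mul a b _ _ iha ihb =>
      have := H.mul_mem iha ihb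
      have e : x * a * x⁻¹ * (x * b * x⁻¹) = x * (a * b) * x⁻¹ := by group
      rwa [e] at this
    | inv a _ iha =>
      have := H.inv_mem iha
      have e : (x * a * x⁻¹)⁻¹ = x * a⁻¹ * x⁻¹ := by group
      rwa [e] at this
  · intro hx
    obtain ⟨n, hn, hr'⟩ := h.mem x hx
    obtain ⟨b, hb, hne⟩ := difB_spec ((allB_iff _ _).1 hd n hn)
    have hbN := ltB_spec hB b hb
    apply hne
    have h1 := hr' ⟨b, hbN⟩
    have h2 := hxP ⟨b, hbN⟩
    rw [← h1, ← h2]

/-! ### Witnesses -/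

/-- a cycle of length `l` or `l'` at the point `0` -/
def Cyc (l l' : ℕ) [NeZero N] (g : Perm (Fin N)) : Prop := g 0 ≠ 0 ∧ ((g ^ l) 0 = 0 ∨ (g ^ l') 0 = 0)

theorem dvd_of_pow_fix {X : Type*} {g : Perm X} {x : X} {l : ℕ} (hl : l.Prime) (h0 : g x ≠ x)
    (h : (g ^ l) x = x) : l ∣ orderOf g := by
  by_contra hn
  have hco : Nat.Coprime l (orderOf g) := (Nat.Prime.coprime_iff_not_dvd hl).2 hn
  apply h0
  have h1 : g ^ l ∈ MulAction.stabilizer (Perm X) x := h
  have h2 : g ^ orderOf g ∈ MulAction.stabilizer (Perm X) x := by rw [pow_orderOf_eq_one]; exact one_mem _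
  have h3 : g ^ ((Nat.gcd l (orderOf g) : ℕ) : ℤ) ∈ MulAction.stabilizer (Perm X) x := by
    rw [Nat.gcd_eq_gcd_ab, zpow_add, zpow_mul, zpow_mul, zpow_natCast, zpow_natCast]
    exact mul_mem (zpow_mem h1 _) (zpow_mem h2 _)
  rw [hco.gcd_eq_one] at h3
  simpa using h3

theorem Cyc.dvd [NeZero N] {l l' : ℕ} {g : Perm (Fin N)} (hl : l.Prime) (hl' : l'.Prime) (h : Cyc l l' g) :
    l ∣ orderOf g ∨ l' ∣ orderOf g := by
  rcases h with ⟨h0, h | h⟩
  · exact Or.inl (dvd_of_pow_fix hl h0 h)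
  · exact Or.inr (dvd_of_pow_fix hl' h0 h)

/-- `f ^ l` or `f ^ (l + k)` fixes `0`, `f` does not -/
def cycB (l k : ℕ) (f : ℕ → ℕ) : Bool :=
  forceB (f 0) fun p1 => band (nbeq p1 0)
    (forceB (it f (Nat.pred l) p1) fun pl => cond (Nat.beq pl 0) true (Nat.beq (it f k pl) 0))

theorem it_add (f : ℕ → ℕ) (j k p : ℕ) : it f (j + k) p = it f j (it f k p) := by
  induction j with
  | zero => rw [Nat.zero_add]; rfl
  | succ j ih => rw [Nat.succ_add, it_succ, it_succ, ih]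

theorem cycB_spec [NeZero N] {l k : ℕ} (hl : 1 ≤ l) {f : ℕ → ℕ} {g : Perm (Fin N)} (hg : Rep g f)
    (h : cycB l k f = true) : Cyc l (l + k) g := by
  unfold cycB at h
  rw [forceB_eq, band_eq_true, forceB_eq] at h
  obtain ⟨h1, h2⟩ := h
  rw [nbeq_iff] at h1
  have e0 : ((0 : Fin N) : ℕ) = 0 := rfl
  have e1 : it f l 0 = it f (Nat.pred l) (f 0) := by
    obtain ⟨s, rfl⟩ : ∃ s, l = s + 1 := ⟨l - 1, by omega⟩
    show it f (s + 1) 0 = it f s (f 0)
    rw [it_add]; rfl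
  refine ⟨fun hc => h1 ?_, ?_⟩
  · have := hg 0
    rw [hc, e0] at this
    exact this.symm
  · rw [← e1] at h2
    cases hb : Nat.beq (it f l 0) 0 with
    | true =>
      left
      apply Fin.ext
      rw [hg.iter l 0, e0]
      exact Nat.eq_of_beq_eq_true hb
    | false =>
      right
      rw [hb, cond_false, ← it_add] at h2
      apply Fin.ext
      rw [hg.iter (l + k) 0, e0, Nat.add_comm]
      exact Nat.eq_of_beq_eq_true h2

/-- witness number `(W >>> 4 n) &&& 15` for the normal form number `n` -/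
def witB (l k : ℕ) (L : List (ℕ × ℕ)) (A0 : ℕ) (As : List ℕ) (W n : ℕ) : Bool :=
  cycB l k (fun p => lk (getT A0 As (Nat.land (Nat.shiftRight W (Nat.mul 4 n)) 15)) (nf L n p))

/-- all normal forms are products -/
theorem exists_of_wit [NeZero N] {l k : ℕ} (hl : 1 ≤ l) {L : List (ℕ × ℕ)} {M : ℕ}
    {H J : Subgroup (Perm (Fin N))} (hH : Gd L M H) {A0 : ℕ} {As : List ℕ} {W : ℕ}
    (hA : ∀ A ∈ A0 :: As, ∃ a ∈ J, Rep a (lk A) ∧ Cyc l (l + k) a)
    (hW : ∀ n < M, witB l k L A0 As W n = true) {g : Perm (Fin N)} (hg : g ∈ H) :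
    ∃ a ∈ J, Cyc l (l + k) a ∧ Cyc l (l + k) (a * g) := by
  obtain ⟨n, hn, hr⟩ := hH.mem g hg
  have h1 := hW n hn
  unfold witB at h1
  set A := getT A0 As (Nat.land (Nat.shiftRight W (Nat.mul 4 n)) 15) with hAdef
  have hAm : A ∈ A0 :: As := by
    rcases getT_mem A0 As (Nat.land (Nat.shiftRight W (Nat.mul 4 n)) 15) with h | h
    · rw [hAdef, h]; exact List.mem_cons_self
    · exact List.mem_cons_of_mem _ h
  obtain ⟨a, ha, har, hac⟩ := hA A hAm
  exact ⟨a, ha, hac, cycB_spec hl (har.mul hr) h1⟩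

end Cfsg.Agent.H983.Pw
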